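import Cfsg.Agent.Lib.LAE.PIrr
import Cfsg.Agent.Lib.Comp.FStar
import Cfsg.Agent.Lib.Coprime.Abelian
import Cfsg.Agent.Lib.Coprime.Sylow
import Cfsg.Agent.Lib.PGroup.Critical
import Cfsg.Agent.Lib.Core.Commutator

/-!
# Isolated `p`-minimal subgroups (Meierfrankenfeld, Parker, Rowley)
-/

set_option autoImplicit false

namespace CfsgLib.IsoPM

open Subgroup Cfsg CfsgLib.LAE CfsgLib.Comp
open scoped commutatorElement

variable {G : Type*} [Group G] [Finite G] {p : ℕ} [hp : Fact p.Prime]

/-- The properties of an isolated subgroup `P` over `S` with the complementary subgroup `L`. -/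
structure Iso (S : Sylow p G) (P L : Subgroup G) : Prop where
  sP : (S : Subgroup G) ≤ P
  sL : (S : Subgroup G) ≤ L
  gen : ∀ H K : Subgroup G, (S : Subgroup G) ≤ H → H ⊓ L ≤ K → (P ≤ H → P ≤ K) → H ≤ K
  nle : ¬ pCoreOf p L ≤ pCoreOf p P

theorem iso_of (S : Sylow p G) {P L : Subgroup G} (hSP : (S : Subgroup G) ≤ P)
    (hL : L = normalizer ((S : Subgroup G) : Set G) ⊔ ⨆ P' : {P' : Subgroup G //
      (S : Subgroup G) ≤ P' ∧ IsPMinimal p ↥P' ∧ P' ≠ P}, (P' : Subgroup G))
    (hiso : ¬ pCoreOf p L ≤ pCoreOf p P) : Iso S P L := by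
  have hN : normalizer ((S : Subgroup G) : Set G) ≤ L := hL ▸ le_sup_left
  refine ⟨hSP, le_normalizer.trans hN, fun H K hH h1 h2 => ?_, hiso⟩
  have hS := isSylowIn_of_le S hH
  have h3 : H ⊓ normalizer ((S : Subgroup G) : Set G) ≤ K := (inf_le_inf_left H hN).trans h1
  rw [← hS.pElementClosure_sup]
  refine sup_le (hS.pElementClosure_le_of_pMinimal ((le_inf hH le_normalizer).trans h3)
    (h3.trans le_normalizer) fun P' a1 a2 a3 => ?_) h3
  by_cases e : P' = P
  · exact e ▸ h2 (e ▸ a2)
  · refine (le_inf a2 ?_).trans h1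
    rw [hL]
    exact (le_iSup (fun P' : {P' : Subgroup G // (S : Subgroup G) ≤ P' ∧ IsPMinimal p ↥P' ∧
      P' ≠ P} => (P' : Subgroup G)) ⟨P', a1, a3, e⟩).trans le_sup_right

namespace Iso

variable {S : Sylow p G} {P L : Subgroup G} (h : Iso S P L)
include h

theorem quot {G' : Type*} [Group G'] [Finite G'] {f : G →* G'} (hf : Function.Surjective f)
    (hk : IsPGroup p f.ker) : Iso (S.mapSurjective hf) (P.map f) (L.map f) := by
  have hkS : f.ker ≤ S := hk.le_sylow_of_normal S
  refine ⟨map_mono h.sP, map_mono h.sL, fun H K hH h1 h2 => ?_, fun e => h.nle ?_⟩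
  · rw [← comap_le_comap_of_surjective hf]
    refine h.gen _ _ (map_le_iff_le_comap.1 hH) (fun x hx => h1 ⟨hx.1, mem_map_of_mem f hx.2⟩)
      fun e => map_le_iff_le_comap.1 (h2 (map_le_iff_le_comap.2 e))
  · refine (map_le_iff_le_comap.1 ((map_pCoreOf_le f L).trans e)).trans (le_pCoreOf
      (isPGroup_comap_of_ker hk (isPGroup_pCoreOf _)) ?_ ?_)
    · rw [← comap_map_eq_self (hkS.trans h.sP)]
      exact comap_mono (by rw [map_comap_eq_self_of_surjective hf]; exact pCoreOf_le _)
    · exact (le_comap_map f P).trans (comap_le_normalizer_comap f (le_normalizer_pCoreOf _))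

omit [Finite G] in
theorem qS : pCoreOf p L ≤ S := (isSylowIn_of_le S h.sL).pCoreOf_le

omit [Finite G] in
theorem sQ : (S : Subgroup G) ≤ normalizer (pCoreOf p L : Set G) :=
  h.sL.trans (le_normalizer_pCoreOf L)

theorem res_sup : pResOf p P ⊔ S = P := (isSylowIn_of_le S h.sP).pResOf_sup

theorem res_not_norm : ¬ pResOf p P ≤ normalizer (pCoreOf p L : Set G) := fun e =>
  h.nle (le_pCoreOf (isPGroup_pCoreOf L) (h.qS.trans h.sP) (h.res_sup ▸ sup_le e h.sQ))

theorem res_not_le : ¬ pResOf p P ≤ L := fun e =>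
  h.res_not_norm (e.trans (le_normalizer_pCoreOf L))

theorem res_not_cent : ¬ pResOf p P ≤ centralizer (pCoreOf p L : Set G) := fun e =>
  h.res_not_norm (e.trans (centralizer_le_normalizer _))

omit [Finite G] in
theorem sup_top : P ⊔ L = ⊤ :=
  top_le_iff.1 (h.gen ⊤ _ le_top (inf_le_right.trans le_sup_right) fun _ => le_sup_left)

theorem res_le {N : Subgroup G} (hN : (S : Subgroup G) ≤ normalizer (N : Set G)) (hL : ¬ N ≤ L) :
    pResOf p P ≤ N := by
  by_cases e : P ≤ (S : Subgroup G) ⊔ N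
  · exact (pResOf_mono e).trans ((pResOf_sup_of_isPGroup S.isPGroup' hN).le.trans (pResOf_le N))
  · exact absurd (le_sup_right.trans (h.gen (S ⊔ N) L le_sup_left inf_le_right
      fun e1 => absurd e1 e)) hL

omit [Finite G] in
theorem comm_le {N : Subgroup G} (hN : (S : Subgroup G) ≤ normalizer (N : Set G)) (hL : N ≤ L) :
    ⁅N, pCoreOf p L⁆ ≤ N ⊓ pCoreOf p L :=
  le_inf (commutator_le_left_of_le_normalizer (h.qS.trans hN))
    (commutator_le_right_of_le_normalizer (hL.trans (le_normalizer_pCoreOf L)))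

theorem cent_of_coprime {N : Subgroup G} (hN : (S : Subgroup G) ≤ normalizer (N : Set G))
    (hL : N ≤ L) (hc : (Nat.card N).Coprime p) : N ≤ centralizer (pCoreOf p L : Set G) := by
  rw [← commutator_eq_bot_iff_le_centralizer, ← le_bot_iff,
    ← Core.isPGroup_inf_eq_bot_of_coprime (isPGroup_pCoreOf L) hc, inf_comm]
  exact h.comm_le hN hL

omit [Finite G] in
theorem cent_of_subnormal (hO : pCore p G = ⊥) {N : Subgroup G}
    (hN : (S : Subgroup G) ≤ normalizer (N : Set G)) (hL : N ≤ L) (hs : N.IsSubnormal) :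
    N ≤ centralizer (pCoreOf p L : Set G) := by
  rw [← commutator_eq_bot_iff_le_centralizer, ← le_bot_iff, ← hO, ← pCoreOf_top]
  refine (h.comm_le hN hL).trans (le_trans ?_ (subnormalIn_top_iff.2 hs).pCoreOf_le)
  exact le_pCoreOf ((isPGroup_pCoreOf L).to_inf_right) inf_le_left
    (le_normalizer_inf le_normalizer (hL.trans (le_normalizer_pCoreOf L)))

theorem pprime {D : Subgroup G} (hD : (S : Subgroup G) ≤ normalizer (D : Set G)) (hL : ¬ D ≤ L)
    (hc : (Nat.card D).Coprime p) :
    ∃ t : ℕ, t.Prime ∧ t ≠ p ∧ IsPGroup t (pResOf p P) ∧ ⁅D, pCoreOf p L⁆ = pResOf p P := by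
  set Q := pCoreOf p L with hQ
  have hSs : Group.IsSolvable (S : Subgroup G) := Coprime.isSolvable_of_isPGroup S.isPGroup'
  have hcop : (Nat.card (S : Subgroup G)).Coprime (Nat.card D) :=
    Core.isPGroup_coprime_card S.isPGroup' hc
  have sub : ∀ {U : Subgroup G}, U ≤ D → (Nat.card U).Coprime p := fun hU =>
    Nat.Coprime.coprime_dvd_left (card_dvd_of_le hU) hc
  obtain ⟨t, T, ht, hTD, hT, hi, hST, hTL⟩ : ∃ (t : ℕ) (T : Subgroup G), t.Prime ∧ T ≤ D ∧
      IsPGroup t T ∧ ¬ t ∣ T.relIndex D ∧ (S : Subgroup G) ≤ normalizer (T : Set G) ∧ ¬ T ≤ L := by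
    by_contra hn
    push Not at hn
    exact hL ((Coprime.eq_of_forall_invariant_pgroup_le hD hcop (Or.inl hSs)
      (inf_le_left : D ⊓ L ≤ D) fun t T a1 a2 a3 a4 a5 =>
        le_inf a2 (hn t T a1 a2 a3 a4 a5)).ge.trans inf_le_right)
  haveI := Fact.mk ht
  have hX : IsPGroup t (pResOf p P) := hT.to_le (h.res_le hST hTL)
  have htp : t ≠ p := by
    rintro rfl
    have := Core.isPGroup_inf_eq_bot_of_coprime hT (sub hTD)
    rw [inf_idem] at this
    exact hTL (this ▸ bot_le)
  have hWT : ⁅D, Q⁆ ≤ T := by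
    have hcp : (T.relIndex D).Coprime ((centralizer (Q : Set G)).relIndex D) := by
      refine Nat.coprime_of_dvd fun r hr h1 h2 => ?_
      haveI := Fact.mk hr
      obtain ⟨U, hUD, hU, hj, hSU⟩ := Coprime.exists_invariant_sylow' r hD hcop (Or.inl hSs)
      have hUL : U ≤ L := by
        by_contra e
        have := IsPGroup.disjoint_of_ne t r (fun e => hi (e ▸ h1)) _ _ hX
          (hU.to_le (h.res_le hSU e))
        rw [disjoint_self] at this
        exact h.res_not_le (this ▸ bot_le)
      exact hj (h2.trans (relIndex_dvd_of_le_left D (h.cent_of_coprime hSU hUL (sub hUD))))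
    rw [commutator_le]
    intro d hd q hq
    obtain ⟨x, hx, y, hy, rfl⟩ := Coprime.exists_mul_of_coprime_relIndex hTD hcp hd
    have e : ⁅x * y, q⁆ = ⁅x, q⁆ := by
      simp only [commutatorElement_def]
      rw [mul_assoc x y q, ← hy q hq]
      group
    rw [e]
    exact commutator_le_left_of_le_normalizer (h.qS.trans hST) (commutator_mem_commutator hx hq)
  refine ⟨t, ht, htp, hX, ?_⟩
  set W := ⁅D, Q⁆
  have hQD : Q ≤ normalizer (D : Set G) := h.qS.trans hD
  have hQc : (Nat.card Q).Coprime (Nat.card D) := Core.isPGroup_coprime_card (isPGroup_pCoreOf L) hc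
  have hWD : W ≤ D := hWT.trans hTD
  have hSW : (S : Subgroup G) ≤ normalizer (W : Set G) := le_normalizer_commutator hD h.sQ
  have hWL : ¬ W ≤ L := fun e => h.res_not_cent ((h.res_le hD hL).trans (le_centralizer_iff.1
    (Coprime.le_centralizer_of_commutator_le_centralizer hQD hQc
      (h.cent_of_coprime hSW e (sub hWD)))))
  have hXW := h.res_le hSW hWL
  refine (Core.eq_of_le_sup_map_frattini hXW ?_).symm
  have hSK : (S : Subgroup G) ≤ normalizer ((pResOf p P ⊔ (L ⊓ W) : Subgroup G) : Set G) :=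
    le_normalizer_sup (h.sP.trans (le_normalizer_pResOf P))
      (le_normalizer_inf (h.sL.trans le_normalizer) hSW)
  have h1 : W ⊔ S ≤ (S : Subgroup G) ⊔ (pResOf p P ⊔ (L ⊓ W)) := by
    refine h.gen _ _ le_sup_right ?_ fun _ => ?_
    · rw [inf_comm, inf_sup_of_le_of_le_normalizer' hSW h.sL]
      exact sup_le (le_sup_right.trans le_sup_right) le_sup_left
    · exact h.res_sup.ge.trans (sup_le (le_sup_left.trans le_sup_right) le_sup_left)
  have h2 : W ≤ pResOf p P ⊔ (L ⊓ W) := fun w hw =>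
    pResOf_le _ ((pResOf_sup_of_isPGroup S.isPGroup' hSK).le (pResOf_mono (le_sup_left.trans h1)
      (mem_pResOf hw (Core.subgroup_coprime_card_iff.1 (sub hWD) w hw))))
  refine h2.trans (sup_le_sup_left (le_trans ?_
    (Core.commutator_le_map_frattini (hT.to_le hWT))) _)
  refine le_trans (le_inf (h.cent_of_coprime (le_normalizer_inf (h.sL.trans le_normalizer) hSW)
    inf_le_left (sub (inf_le_right.trans hWD))) ?_) (Coprime.centralizer_inf_commutator_le
    (h.qS.trans hSW) (Coprime.coprime_of_le hQc le_rfl hWD))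
  exact inf_le_right.trans (Coprime.commutator_commutator_eq hQD hQc).ge

theorem res_le_fstar (hO : pCore p G = ⊥) : pResOf p P ≤ generalizedFittingSubgroup G := by
  haveI : (generalizedFittingSubgroup G).Normal := fstar_normal
  refine h.res_le le_normalizer_of_normal fun e => h.nle ?_
  have := le_pCore_of_le_fit (isPGroup_pCoreOf L) ((le_centralizer_iff.1 (h.cent_of_subnormal hO
    le_normalizer_of_normal e (Normal.isSubnormal inferInstance))).trans centralizer_fstar_le_fit)
  exact this.trans (hO ▸ bot_le)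

theorem case_fit (hO : pCore p G = ⊥) (hF : ¬ fittingSubgroup G ≤ L) :
    (pResOf p P).Normal ∧ ∃ t : ℕ, t.Prime ∧ t ≠ p ∧ IsPGroup t (pResOf p P) ∧
      _root_.commutator (pResOf p P) ≤ center (pResOf p P) := by
  haveI : (fittingSubgroup G).Normal := fit_normal
  have hc : (Nat.card (fittingSubgroup G)).Coprime p := by
    have := fit_le_pCore_sup_pPrimeCore (G := G) p
    rw [hO, bot_sup_eq] at this
    exact Nat.Coprime.coprime_dvd_left (card_dvd_of_le this) (Core.coprime_card_pPrimeCore p G)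
  obtain ⟨t, ht, htp, hX, e⟩ := h.pprime le_normalizer_of_normal hF hc
  haveI := Fact.mk ht
  haveI hn : (pResOf p P).Normal := by
    refine normal_of_top_le (h.sup_top ▸ sup_le (le_normalizer_pResOf P) ?_)
    rw [← e]
    exact le_normalizer_commutator le_normalizer_of_normal (le_normalizer_pCoreOf L)
  refine ⟨hn, t, ht, htp, hX, ?_⟩
  haveI := hX.isNilpotent
  refine PGroup.commutator_le_center_of_char_abelian fun A hA hAc => ?_
  haveI : (A.map (pResOf p P).subtype).Normal := Core.normal_map_subtype_of_characteristic A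
  have key : pResOf p P ≤ centralizer (A.map (pResOf p P).subtype : Set G) := by
    by_cases hAL : A.map (pResOf p P).subtype ≤ L
    · exact e.ge.trans ((commutator_mono le_rfl (le_centralizer_iff.1 (h.cent_of_subnormal hO
        le_normalizer_of_normal hAL (Normal.isSubnormal inferInstance)))).trans
        (commutator_le_right _ _))
    · exact (h.res_le le_normalizer_of_normal hAL).trans (le_centralizer _)
  intro a ha
  exact mem_center_iff.2 fun x => Subtype.ext (key x.2 a ⟨a, ha, rfl⟩).symm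

end Iso

/-- The join of the conjugates of `K` under `S`. -/
def orb (S K : Subgroup G) : Subgroup G := sSup {L | ∃ x ∈ S, L = conjS x K}

omit [Finite G] in
theorem le_orb (S K : Subgroup G) : K ≤ orb S K := le_sSup ⟨1, one_mem _, (conjS_one K).symm⟩

omit [Finite G] in
theorem orb_le {S K M : Subgroup G} (h : ∀ x ∈ S, conjS x K ≤ M) : orb S K ≤ M :=
  sSup_le (by rintro _ ⟨x, hx, rfl⟩; exact h x hx)

omit [Finite G] in
theorem orb_le' {S K M : Subgroup G} (h : K ≤ M) (hn : S ≤ normalizer (M : Set G)) :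
    orb S K ≤ M :=
  orb_le fun _ hx => (conjS_mono h).trans (mem_normalizer_iff_conjS.1 (hn hx)).le

theorem le_normalizer_orb (S K : Subgroup G) : S ≤ normalizer (orb S K : Set G) := fun g hg => by
  refine mem_normalizer_of_conjS_le (conjS_le_iff.2 (orb_le fun x hx => le_conjS_iff.2 ?_))
  rw [inv_inv, ← conjS_mul]
  exact le_sSup ⟨g * x, mul_mem hg hx, rfl⟩

omit [Finite G] in
theorem layer_le_normalizer_orb (S : Subgroup G) {K : Subgroup G} (hK : IsComponent K) :
    layer G ≤ normalizer (orb S K : Set G) :=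
  layer_le_normalizer_sSup (by rintro _ ⟨x, -, rfl⟩; exact comp_map_conj hK x)

omit [Finite G] in
theorem orb_le_layer (S : Subgroup G) {K : Subgroup G} (hK : IsComponent K) : orb S K ≤ layer G :=
  orb_le fun x _ => comp_le_layer (comp_map_conj hK x)

namespace Iso

variable {S : Sylow p G} {P L : Subgroup G} (h : Iso S P L) (hO : pCore p G = ⊥)
include h hO

theorem res_le_orb {K : Subgroup G} (hK : IsComponent K)
    (hc : ¬ K ≤ centralizer (pCoreOf p L : Set G)) : pResOf p P ≤ orb S K := by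
  haveI : (layer G).Normal := layer_normal
  refine h.res_le (le_normalizer_orb _ _) fun e => hc ((le_orb _ _).trans
    (h.cent_of_subnormal hO (le_normalizer_orb _ _) e (subnormalIn_top_iff.1 ?_)))
  exact (SubnormalIn.of_normal (orb_le_layer _ hK) (layer_le_normalizer_orb _ hK)).trans
    (SubnormalIn.of_normal le_top le_normalizer_of_normal)

theorem case_layer (hF : fittingSubgroup G ≤ L) {Y : Subgroup G}
    (hY : Y = normalClosure (pResOf p P : Set G)) :
    p ∣ Nat.card Y ∧ layer Y = ⊤ ∧ ¬ Group.IsSolvable Y ∧ ∀ K₁ K₂ : Subgroup G, IsComponent K₁ →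
      IsComponent K₂ → K₁ ≤ Y → K₂ ≤ Y → ∃ s ∈ (S : Subgroup G), K₂ = conjS s K₁ := by
  haveI : (fittingSubgroup G).Normal := fit_normal
  haveI : Y.Normal := hY ▸ normalClosure_normal
  set Q := pCoreOf p L with hQ
  have hXY : pResOf p P ≤ Y := hY ▸ le_normalClosure
  let 𝒮 : Set (Subgroup G) := {K | IsComponent K ∧ ¬ K ≤ centralizer (Q : Set G)}
  have h𝒮 : ∀ K ∈ 𝒮, IsComponent K := fun K hK => hK.1
  have conj𝒮 : ∀ g ∈ L, ∀ K ∈ 𝒮, conjS g K ∈ 𝒮 := fun g hg K hK =>
    ⟨comp_map_conj hK.1 g, fun e => hK.2 ((conjS_le_iff.1 e).trans (mem_normalizer_iff_conjS.1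
      (le_normalizer_centralizer (le_normalizer_pCoreOf L) (inv_mem hg))).le)⟩
  obtain ⟨K, hK⟩ : ∃ K, K ∈ 𝒮 := by
    by_contra hn
    refine h.res_not_cent ((h.res_le_fstar hO).trans (sup_le (layer_le_iff.2 fun K hK => ?_)
      (h.cent_of_subnormal hO le_normalizer_of_normal hF (Normal.isSubnormal inferInstance))))
    by_contra e
    exact hn ⟨K, hK, e⟩
  have hXD : pResOf p P ≤ sSup 𝒮 := (h.res_le_orb hO hK.1 hK.2).trans
    (orb_le fun x hx => le_sSup (conj𝒮 x (h.sL hx) K hK))
  have hLD : L ≤ normalizer ((sSup 𝒮 : Subgroup G) : Set G) := fun g hg =>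
    mem_normalizer_of_conjS_le (conjS_le_iff.2 (sSup_le fun K hK => le_conjS_iff.2 (by
      rw [inv_inv]; exact le_sSup (conj𝒮 g hg K hK))))
  haveI : (sSup 𝒮).Normal := normal_of_top_le (h.sup_top ▸ sup_le (h.res_sup ▸ sup_le
    (hXD.trans le_normalizer) (h.sL.trans hLD)) hLD)
  have hYD : Y = sSup 𝒮 := by
    refine le_antisymm (hY ▸ normalClosure_le_normal hXD) (sSup_le fun K hK => ?_)
    refine (comp_le_or_commutator_of_normal (N := Y) hK.1).resolve_right fun e => ?_
    rw [commutator_eq_bot_iff_le_centralizer] at e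
    have h1 : pResOf p P ≤ Y ⊓ centralizer (Y : Set G) :=
      le_inf hXY ((h.res_le_orb hO hK.1 hK.2).trans (orb_le' e le_normalizer_of_normal))
    haveI := Core.isMulCommutative_inf_centralizer Y
    exact h.res_not_le (h1.trans ((le_fit Core.isNilpotent_of_isMulCommutative).trans hF))
  have hKY : K ≤ Y := hYD ▸ le_sSup hK
  refine ⟨?_, ?_, fun e => comp_not_le_solvable hK.1 e hKY, fun K₁ K₂ h1 h2 a1 a2 => ?_⟩
  · by_contra hn
    obtain ⟨t, ht, -, hX, e⟩ := h.pprime (D := Y) le_normalizer_of_normal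
      (fun e => h.res_not_le (hXY.trans e)) ((hp.out.coprime_iff_not_dvd.2 hn).symm)
    haveI := Fact.mk ht
    have h3 : Y ≤ centralizer (pResOf p P : Set G) := by
      rw [hYD]
      refine sSup_le fun K hK => commutator_eq_bot_iff_le_centralizer.1
        (comp_commutator_solvable hK.1 (Coprime.isSolvable_of_isPGroup hX) ?_)
      rw [← e]
      exact (hYD ▸ le_sSup hK : K ≤ Y).trans (normalizer_commutator_ge_left _ _)
    have h4 : ⁅Y, Q⁆ = ⊥ := Comp.commutator_eq_bot_of_perfect (hYD ▸ sSup_comp_perfect h𝒮) (by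
      rw [commutator_comm Q, e, commutator_comm, commutator_eq_bot_iff_le_centralizer]
      exact h3)
    exact h.res_not_le (e ▸ h4 ▸ bot_le)
  · apply map_injective Y.subtype_injective
    rw [map_layer_subtype_of_isSubnormal (Normal.isSubnormal inferInstance), map_top_subtype]
    refine le_antisymm (layerIn_le Y) (hYD.le.trans (sSup_le fun K hK => ?_))
    exact comp_le_layerIn hK.1 (hYD ▸ le_sSup hK)
  · have b1 := comp_mem_of_le_sSup h𝒮 h1 (hYD ▸ a1)
    have b2 := comp_mem_of_le_sSup h𝒮 h2 (hYD ▸ a2)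
    by_contra hn
    refine h.res_not_le (le_trans (le_inf ((h.res_le_orb hO h1 b1.2).trans (orb_le_layer _ h1)) ?_)
      (layer_inf_centralizer_le_fit.trans hF))
    rw [le_centralizer_iff, layer_le_iff]
    intro M hM
    rw [le_centralizer_iff]
    by_cases hMK : ∃ x ∈ (S : Subgroup G), M = conjS x K₁
    · refine (h.res_le_orb hO h2 b2.2).trans (orb_le fun x hx => ?_)
      refine comp_le_centralizer_of_ne (comp_map_conj h2 x) hM fun e => hn ?_
      obtain ⟨z, hz, rfl⟩ := hMK
      refine ⟨x⁻¹ * z, mul_mem (inv_mem hx) hz, ?_⟩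
      rw [conjS_mul, ← show conjS x K₂ = conjS z K₁ from e, conjS_inv_conjS]
    · refine (h.res_le_orb hO h1 b1.2).trans (orb_le fun x hx => ?_)
      exact comp_le_centralizer_of_ne (comp_map_conj h1 x) hM fun e => hMK ⟨x, hx, e.symm⟩

end Iso

end CfsgLib.IsoPM
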