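import Cfsg.Agent.Lib.IsoPM.Main

/-!
# Isolated `p`-minimal subgroups: pulling back from `G / O_p(G)`
-/

set_option autoImplicit false

namespace CfsgLib.IsoPM

open Subgroup Cfsg CfsgLib.LAE CfsgLib.Comp

variable {G : Type*} [Group G] [Finite G] {p : ℕ} [hp : Fact p.Prime]

omit [Finite G] in
theorem exists_equiv [(pCore p G).Normal] (Y : Subgroup G) [Y.Normal] [(pCore p Y).Normal] :
    ∃ e : (Y ⧸ pCore p Y) ≃* Y.map (QuotientGroup.mk' (pCore p G)),
      ∀ y : Y, (e (y : Y ⧸ pCore p Y) : G ⧸ pCore p G) = ((y : G) : G ⧸ pCore p G) := by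
  set π := QuotientGroup.mk' (pCore p G)
  have hk : pCore p Y = (π.subgroupMap Y).ker := by
    apply map_injective Y.subtype_injective
    have h1 := (SubnormalIn.of_normal (le_top : Y ≤ ⊤) le_normalizer_of_normal).pCoreOf_eq (p := p)
    rw [pCoreOf_top] at h1
    refine (show pCoreOf p Y = _ from h1).trans ?_
    ext x
    constructor
    · rintro ⟨hx, hx2⟩
      exact ⟨⟨x, hx⟩, Subtype.ext ((QuotientGroup.eq_one_iff x).2 hx2), rfl⟩
    · rintro ⟨y, hy, rfl⟩
      exact ⟨y.2, (QuotientGroup.eq_one_iff (y : G)).1 (congrArg Subtype.val hy)⟩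
  exact ⟨(QuotientGroup.quotientMulEquivOfEq hk).trans
    (QuotientGroup.quotientKerEquivOfSurjective _ (π.subgroupMap_surjective Y)), fun y => rfl⟩

namespace Iso

variable {S : Sylow p G} {P L : Subgroup G} (h : Iso S P L) [(pCore p G).Normal]
include h

theorem quot' : Iso (S.mapSurjective (QuotientGroup.mk'_surjective (pCore p G)))
    (P.map (QuotientGroup.mk' (pCore p G))) (L.map (QuotientGroup.mk' (pCore p G))) :=
  h.quot _ (by rw [QuotientGroup.ker_mk']; exact Core.isPGroup_pCore p G)

theorem res_le_comap : pResOf p P ≤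
    (generalizedFittingSubgroup (G ⧸ pCore p G)).comap (QuotientGroup.mk' (pCore p G)) := by
  rw [← map_le_iff_le_comap, map_pResOf]
  exact h.quot'.res_le_fstar (Core.pCore_quotient_pCore p G)

theorem main {Y : Subgroup G} (hY : Y = normalClosure (pResOf p P : Set G)) [(pCore p Y).Normal] :
    (pResOf p P = Y ∧ ∃ t : ℕ, t.Prime ∧ t ≠ p ∧ IsPGroup t (Y ⧸ pCore p Y) ∧
      _root_.commutator (Y ⧸ pCore p Y) ≤ center (Y ⧸ pCore p Y)) ∨
    (p ∣ Nat.card (Y ⧸ pCore p Y) ∧ layer (Y ⧸ pCore p Y) = ⊤ ∧ ¬ Group.IsSolvable Y ∧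
      ∀ K₁ K₂ : Subgroup (Y ⧸ pCore p Y), IsComponent K₁ → IsComponent K₂ →
        ∃ s ∈ (S : Subgroup G), (K₂.comap (QuotientGroup.mk' (pCore p Y))).map Y.subtype =
          ((K₁.comap (QuotientGroup.mk' (pCore p Y))).map Y.subtype).map
            (MulAut.conj s).toMonoidHom) := by
  haveI : Y.Normal := hY ▸ normalClosure_normal
  have hq := h.quot'
  have hO := Core.pCore_quotient_pCore p G
  have hex := exists_equiv (p := p) Y
  set π := QuotientGroup.mk' (pCore p G) with hπ
  obtain ⟨e, he⟩ := hex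
  have hs : Function.Surjective π := QuotientGroup.mk'_surjective _
  have hX : (pResOf p P).map π = pResOf p (P.map π) := map_pResOf π P
  have hY' : Y.map π = normalClosure (pResOf p (P.map π) : Set (G ⧸ pCore p G)) := by
    rw [hY, map_normalClosure _ π hs, ← hX, coe_map]
  by_cases hF : fittingSubgroup (G ⧸ pCore p G) ≤ L.map π
  · obtain ⟨a1, a2, a3, a4⟩ := hq.case_layer hO hF hY'
    refine Or.inr ⟨by rwa [Nat.card_congr e.toEquiv], ?_, fun hs => a3
      (solvable_of_surjective (π.subgroupMap_surjective Y)), fun K₁ K₂ h1 h2 => ?_⟩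
    · rw [← map_layer_equiv e.symm, a2]
      exact map_top_of_surjective _ e.symm.surjective
    · haveI : (Y.map π).Normal := Normal.map inferInstance π hs
      have comp : ∀ K : Subgroup (Y ⧸ pCore p Y), IsComponent K →
          IsComponent ((K.map e.toMonoidHom).map (Y.map π).subtype) := fun K hK =>
        (comp_map_subtype_iff (Normal.isSubnormal inferInstance) _).1 (comp_map_equiv hK e)
      have pull : ∀ K : Subgroup (Y ⧸ pCore p Y),
          (K.comap (QuotientGroup.mk' (pCore p Y))).map Y.subtype =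
            Y ⊓ ((K.map e.toMonoidHom).map (Y.map π).subtype).comap π := fun K => by
        ext x
        constructor
        · rintro ⟨y, hy, rfl⟩
          exact ⟨y.2, e y, ⟨y, hy, rfl⟩, he y⟩
        · rintro ⟨hx, _, ⟨k, hk, rfl⟩, hx2⟩
          refine ⟨⟨x, hx⟩, ?_, rfl⟩
          have : k = ((⟨x, hx⟩ : Y) : Y ⧸ pCore p Y) :=
            e.injective (Subtype.ext (hx2.trans (he ⟨x, hx⟩).symm))
          rw [this] at hk
          exact hk
      obtain ⟨_, ⟨s, hs1, rfl⟩, hs2⟩ := a4 _ _ (comp K₁ h1) (comp K₂ h2) (map_subtype_le _)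
        (map_subtype_le _)
      refine ⟨s, hs1, ?_⟩
      rw [pull, pull, hs2]
      change _ = conjS s _
      ext x
      rw [mem_conjS, mem_inf, mem_inf, mem_comap, mem_comap, mem_conjS]
      simp only [map_mul, map_inv]
      exact and_congr_left fun _ => ⟨fun hx => Normal.conj_mem' inferInstance x hx s,
        fun hx => by simpa [mul_assoc] using Normal.conj_mem inferInstance _ hx s⟩
  · obtain ⟨a1, t, ht, htp, a2, a3⟩ := hq.case_fit hO hF
    have hXY : pResOf p P = Y := by
      have hn : (pCore p G ⊔ pResOf p P).Normal := by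
        have : pCore p G ⊔ pResOf p P = (pResOf p (P.map π)).comap π := by
          rw [← hX, comap_map_eq, hπ, QuotientGroup.ker_mk', sup_comm]
        rw [this]
        infer_instance
      have e1 : pResOf p (pCore p G ⊔ pResOf p P) = pResOf p P := by
        rw [pResOf_sup_of_isPGroup (Core.isPGroup_pCore p G) ((((Core.isPGroup_pCore p G).le_sylow_of_normal
          S).trans h.sP).trans (le_normalizer_pResOf P)), pResOf_pResOf]
      haveI : (pResOf p P).Normal := by
        rw [← e1]
        exact normal_of_top_le (le_normalizer_pResOf_of_le le_normalizer_of_normal)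
      rw [hY, normalClosure_eq_self]
    have e2 : Y.map π = pResOf p (P.map π) := hXY ▸ hX
    rw [← e2] at a2 a3
    refine Or.inl ⟨hXY, t, ht, htp, a2.of_equiv e.symm, ?_⟩
    rw [_root_.commutator_def, commutator_le]
    intro x _ y _
    rw [mem_center_iff]
    intro z
    apply e.injective
    rw [map_mul, map_mul, map_commutatorElement]
    exact mem_center_iff.1 (a3 (commutator_mem_commutator (mem_top _) (mem_top _))) _

end Iso

end CfsgLib.IsoPM
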